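import Mathlib
import Cfsg.Agent.GenExc.Data
import Cfsg.Agent.H631.Exc
import Cfsg.Agent.H526.ObComp
import Cfsg.Agent.H622.Levi.NonSwap

/-!
# Exceptional groups in odd characteristic have more than one 2-block (S5004, S5007; task 1717 of helper526)

`nb_f4`, `nb_e6`, `nb_e7`, `nb_e8` : the centralizer of a 2-subgroup of the torus has a normal subgroup covering
`PSL_3(q)` (a subsystem of type `A_2`).
-/

set_option autoImplicit false
set_option linter.unusedSectionVars false

namespace Cfsg.Agent.H622.OB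

open CoxeterSystem
open Cfsg Cfsg.Lie Cfsg.Lie.ChevalleyDatum
open Cfsg.Agent.ChevalleyStructure Cfsg.Agent.ChevalleyStructure.Elts Cfsg.Agent.ChevalleyStructure.CoxeterGeom
  Cfsg.Agent.ChevalleyStructure.RootVec Cfsg.Agent.ChevalleyStructure.RootVecTab
  Cfsg.Agent.ChevalleyStructure.CoxeterGeomTypes Cfsg.Agent.ChevalleyStructure.NPerm
open Cfsg.Agent.Tits.Roots Cfsg.Agent.Nodes.Reps Cfsg.Agent.Nodes.BNOf Cfsg.Agent.Nodes.RGDChev
  Cfsg.Agent.Nodes.Bruhat Cfsg.Agent.Nodes.StabComb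
open Cfsg.Agent.KFacts.RgdChevCoord (TT XX nc)
open Cfsg.Agent.GenExc Cfsg.Agent.GenExc.Chev
open Cfsg.Agent.H526.OB (NB)
open Cfsg.Agent.H622.Levi

/-- central quotients of `SL_n(F)` -/
theorem nb_range {ι F Y : Type*} [Fintype ι] [DecidableEq ι] [CommRing F] [Finite F] [Group Y] [Finite Y]
    {φ : Matrix.SpecialLinearGroup ι F →* Y} (hφ : φ.ker ≤ Subgroup.center (Matrix.SpecialLinearGroup ι F))
    (h : NB (Matrix.ProjectiveSpecialLinearGroup ι F)) : NB ↥φ.range := by
  let e := QuotientGroup.quotientKerEquivRange φ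
  let g : Matrix.SpecialLinearGroup ι F ⧸ φ.ker →* Matrix.ProjectiveSpecialLinearGroup ι F :=
    QuotientGroup.map _ _ (MonoidHom.id _) hφ
  have hval : ∀ (x : Matrix.SpecialLinearGroup ι F) (y : φ.range), (y : Y) = φ x →
      (g.comp e.symm.toMonoidHom) y = QuotientGroup.mk x := by
    intro x y hy
    have h1 : e (QuotientGroup.mk x) = y := Subtype.ext hy.symm
    rw [← h1]
    change g (e.symm (e (QuotientGroup.mk x))) = _
    rw [e.symm_apply_apply]
    rfl
  refine H526.OB.NB.of_surjective (g.comp e.symm.toMonoidHom) ?_ ?_ h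
  · intro z
    obtain ⟨x, rfl⟩ := QuotientGroup.mk_surjective z
    exact ⟨⟨φ x, x, rfl⟩, hval x _ rfl⟩
  · rintro ⟨_, x, rfl⟩ hx
    rw [MonoidHom.mem_ker, hval x _ rfl] at hx
    have h2 : x ∈ Subgroup.center (Matrix.SpecialLinearGroup ι F) := (QuotientGroup.eq_one_iff x).1 hx
    rw [Subgroup.mem_center_iff]
    rintro ⟨_, y, rfl⟩
    apply Subtype.ext
    change φ y * φ x = φ x * φ y
    rw [← map_mul, ← map_mul, Subgroup.mem_center_iff.1 h2 y]

section

variable {D : ChevalleyDatum} {l : ℕ} {M : CoxeterMatrix (Fin l)} (hp : IsType D l M)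

include hp in
/-- **Subsystems of type `A_2`.** -/
theorem nb_of_a2 {K : Type} [Field K] [Fintype K] (hK : Odd (Fintype.card K)) {k₀ k₁ : Fin l} (hM : M k₀ k₁ = 3)
    {Ss : List (List (Fin l))} {Jc Js : List (Fin l)} {As : List (ℕ × List (Fin l))}
    (hJc : ∀ k, k ∈ Jc ↔ k ≠ k₀ ∧ k ≠ k₁) (hc : GenExc.chk D Ss Jc Js As = true)
    (h3 : ∀ (F : Type) [Field F] [Fintype F], Odd (Fintype.card F) →
      NB (Matrix.ProjectiveSpecialLinearGroup (Fin 3) F)) : NB ↥(D.group K) := by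
  classical
  obtain ⟨p, hpr, hcp⟩ : ∃ p : ℕ, p.Prime ∧ CharP K p := by
    obtain ⟨p, hcp⟩ := CharP.exists K
    exact ⟨p, CharP.char_is_prime K p, hcp⟩
  have : Fact p.Prime := ⟨hpr⟩
  let cs : CoxeterSystem M M.Group := M.toCoxeterSystem
  have : Finite M.Group := finite_W hp cs
  have hfin : Finite ↥(D.group K) := inferInstance
  have h2 : (2 : K) ≠ 0 := H631.two_ne_zero_of_odd hK
  have R := Cfsg.Agent.Nodes.RGDChev.rgd hp (K := K) (cs := cs) p
  obtain ⟨k, hk0, hk1, hkr, hk⟩ := exists_chain hM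
  obtain ⟨F, _, _, φ, C⟩ := exists_co R le_rfl k hk
  have hF : Odd (Fintype.card F) := by
    have h4 := C.card 0
    rw [← vec_simple hp (k 0), card_XX hp (K := K) (simple_lt hp.checked (lt_rank hp (k 0))),
      Nat.card_eq_fintype_card, Nat.card_eq_fintype_card] at h4
    rwa [← h4]
  -- the Levi subgroup
  have hrange : φ.range = HL cs hp.isCartan (XX D l K) k := by
    have h4 := C.range (cs := cs) (h := hp.isCartan) hk (by norm_num)
    rw [h4]
    have h5 : RootsJ cs hp.isCartan (Set.range k) = LR cs hp.isCartan k := by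
      ext x
      refine and_congr_right fun _ => forall_congr' fun i => ?_
      rw [Set.mem_range, not_exists]
    unfold HL
    rw [← h5]
    rfl
  have hNI := NI_eq hp cs k (Jc := Jc) (fun i => by
    rw [hJc, ← hk0, ← hk1]
    constructor
    · rintro ⟨h4, h5⟩ a
      fin_cases a
      · exact h4.symm
      · exact h5.symm
    · intro h4
      exact ⟨(h4 0).symm, (h4 1).symm⟩) hc
  -- the `2`-group
  set S : Set ↥(D.group K) := {y | ∃ T ∈ Ss, y = zS hp K T} with hS
  have hE := evenSet hp (K := K) cs h2 Ss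
  set Q := Subgroup.closure S with hQd
  have hSr : S = Set.range fun T : {T // T ∈ Ss} => zS hp K T.1 := by
    ext y
    constructor
    · rintro ⟨T, hT, rfl⟩; exact ⟨⟨T, hT⟩, rfl⟩
    · rintro ⟨⟨T, hT⟩, rfl⟩; exact ⟨T, hT, rfl⟩
  have hQ : IsPGroup 2 Q := by
    rw [hQd, hSr]
    exact H631.isPGroup_closure _ (fun T => zS_sq hp K T.1) fun T T' =>
      diag_comm hp K _ (zS_mem_T hp K T.1) _ (zS_mem_T hp K T'.1)
  have hCQ : Subgroup.centralizer (Q : Set ↥(D.group K)) = Subgroup.centralizer S := Subgroup.centralizer_closure S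
  refine H526.OB.NB.of_simple_le Q hQ φ.range ?_ ?_ (nb_range C.ker (h3 F hF))
  · rw [hCQ, hrange]
    refine RGD.Sup_le fun x hx => ?_
    rw [← hNI] at hx
    exact hE.even x hx.1
  · rw [hCQ, hrange]
    have h4 := cent_le_norm R (S := S) (E := Ev D l Ss) (by rintro _ ⟨T, -, rfl⟩; exact zS_mem_T hp K T)
      (KFacts.RgdRigid.GG_eq_top (G1_eq_top hp cs)) (commOK hp (K := K) cs) hE
    rw [hNI] at h4
    intro c hc y hy
    exact (Subgroup.mem_normalizer_iff.1 (h4 hc) y).1 hy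

end

theorem chk_F4 : GenExc.chk chevF4 (l := 4) [[3], [0, 2]] [2, 3] [0, 1] [] = true := by decide +kernel
theorem chk_E6 : GenExc.chk chevE6 (l := 6) [[1], [4], [5], [0, 3]] [1, 3, 4, 5] [0, 2] [] = true := by decide +kernel
theorem chk_E7 : GenExc.chk chevE7 (l := 7) [[1], [4], [5], [6], [0, 3]] [1, 3, 4, 5, 6] [0, 2] [] = true := by
  decide +kernel
theorem chk_E8 : GenExc.chk chevE8 (l := 8) [[1], [4], [5], [6], [7], [0, 3]] [1, 3, 4, 5, 6, 7] [0, 2] [] = true := by
  decide +kernel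

section

variable {F : Type} [Field F] [Fintype F] (hF : Odd (Fintype.card F))
  (h3 : ∀ (F : Type) [Field F] [Fintype F], Odd (Fintype.card F) → NB (Matrix.ProjectiveSpecialLinearGroup (Fin 3) F))

include hF h3

theorem nb_f4 : NB ↥(chevF4.group F) :=
  nb_of_a2 isType_F4 hF (k₀ := 0) (k₁ := 1) (by decide) (by decide) chk_F4 h3

theorem nb_e6 : NB ↥(chevE6.group F) :=
  nb_of_a2 isType_E6 hF (k₀ := 0) (k₁ := 2) (by decide) (by decide) chk_E6 h3

theorem nb_e7 : NB ↥(chevE7.group F) :=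
  nb_of_a2 isType_E7 hF (k₀ := 0) (k₁ := 2) (by decide) (by decide) chk_E7 h3

theorem nb_e8 : NB ↥(chevE8.group F) :=
  nb_of_a2 isType_E8 hF (k₀ := 0) (k₁ := 2) (by decide) (by decide) chk_E8 h3

end

end Cfsg.Agent.H622.OB
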