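import Mathlib
import Cfsg.Agent.H622.OB.Exc
import Cfsg.Agent.H631.ExcChev

/-!
# `G_2(q)`, `q > 3` odd, has more than one 2-block (S5004, S5007; task 1717 of helper526)

* `cent_component` : centralizers of subsets of the torus and subsystems of type `A_1`;
* `nb_g2`.
-/

set_option autoImplicit false
set_option linter.unusedSectionVars false

namespace Cfsg.Agent.H622.OB

open CoxeterSystem
open Cfsg Cfsg.Lie Cfsg.Lie.ChevalleyDatum
open Cfsg.Agent.ChevalleyStructure Cfsg.Agent.ChevalleyStructure.Elts Cfsg.Agent.ChevalleyStructure.CoxeterGeom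
  Cfsg.Agent.ChevalleyStructure.RootVec Cfsg.Agent.ChevalleyStructure.RootVecTab
  Cfsg.Agent.ChevalleyStructure.CoxeterGeomTypes Cfsg.Agent.ChevalleyStructure.NPerm
open Cfsg.Agent.Tits.Roots Cfsg.Agent.Tits.Core Cfsg.Agent.Nodes.Reps Cfsg.Agent.Nodes.BNOf Cfsg.Agent.Nodes.RGDChev
  Cfsg.Agent.Nodes.Bruhat Cfsg.Agent.Nodes.StabComb
open Cfsg.Agent.KFacts.RgdChevCoord (TT XX nc)
open Cfsg.Agent.GenExc Cfsg.Agent.GenExc.Chev
open Cfsg.Agent.H526.OB (NB)

section general

variable {I W Y : Type*} [Fintype I] [DecidableEq I] [Group W] [Group Y] {M : CoxeterMatrix I}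
  {cs : CoxeterSystem M W} {A : I → I → ℤ} {h : IsCartan M A} {p : ℕ} {T : Subgroup Y} {n : I → Y}
  {X : (I → ℤ) → Subgroup Y} {S : Set Y} {E : Set (I → ℤ)}

/-- the conjugates, under the centralizer of a subset of the torus, of the group of an isolated even root -/
theorem cent_component [Finite W] (R : RGD cs h p T n X) (hS : S ⊆ T) (hG : GG cs h T X = ⊤)
    (hc : CommOK cs h X) (hE : EvenSet cs h X S E) {a : I → ℤ} (ha : a ∈ E)
    (hiso : ∀ x ∈ E, x ≠ a → x ≠ -a → ¬ IsRoot cs h (x + a) ∧ ¬ IsRoot cs h (x + -a)) {g : Y}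
    (hg : g ∈ Subgroup.centralizer S) :
    (∀ k ∈ X a ⊔ X (-a), g * k * g⁻¹ ∈ X a ⊔ X (-a)) ∨
      (∀ k ∈ X a ⊔ X (-a), ∀ l ∈ X a ⊔ X (-a), (g * k * g⁻¹) * l = l * (g * k * g⁻¹)) := by
  set K := X a ⊔ X (-a) with hK
  obtain ⟨u, hu, w, k, hk, hkS, v, hv, rfl⟩ := Cfsg.Agent.Nodes.NormalForm.mem_centralizer R
    hS (by rw [hG]; trivial) hg
  have har := hE.root a ha
  -- commuting root groups
  have hcomm : ∀ x ∈ E, x ≠ a → x ≠ -a → ∀ y ∈ X x, ∀ l ∈ K, y * l = l * y := by
    intro x hx hxa hxa' y hy l hl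
    have h1 : K ≤ Subgroup.centralizer ({y} : Set Y) := by
      refine sup_le ?_ ?_
      · intro l hl
        rw [Subgroup.mem_centralizer_iff]
        rintro _ rfl
        exact hc x a (hE.root x hx) har hxa' (hiso x hx hxa hxa').1 _ hy l hl
      · intro l hl
        rw [Subgroup.mem_centralizer_iff]
        rintro _ rfl
        exact hc x (-a) (hE.root x hx) har.neg (by rwa [_root_.neg_neg]) (hiso x hx hxa hxa').2 _ hy l hl
    exact Subgroup.mem_centralizer_iff.1 (h1 hl) y rfl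
  have hnorm : RGD.Sup (fun x => X x ⊓ Subgroup.centralizer S) (RGD.Pos cs h) ≤
      Subgroup.normalizer (K : Set Y) := by
    refine RGD.Sup_le fun x hx y hy => ?_
    by_cases hxE : x ∈ E
    · by_cases hxa : x = a
      · subst hxa
        exact Subgroup.le_normalizer (hK ▸ (le_sup_left : X x ≤ X x ⊔ X (-x)) hy.1)
      by_cases hxa' : x = -a
      · subst hxa'
        exact Subgroup.le_normalizer (hK ▸ (le_sup_right : X (-a) ≤ X a ⊔ X (-a)) hy.1)
      · exact mem_norm_of_comm (hcomm x hxE hxa hxa' y hy.1)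
    · have h2 := hE.odd x hx.1 hxE
      have h3 : y ∈ X x ⊓ Subgroup.centralizer S := hy
      rw [h2, Subgroup.mem_bot] at h3
      rw [h3]; exact one_mem _
  have hu' := hnorm hu
  have hv' := hnorm hv
  have hwa := EvenSet.act R hE hk hkS ha
  -- the conjugate of `K` under `k`
  have hkK : ∀ l ∈ K, k * l * k⁻¹ ∈ X (rep cs h w a) ⊔ X (-rep cs h w a) := by
    have h1 : cj k K = X (rep cs h w a) ⊔ X (-rep cs h w a) := by
      rw [hK]
      unfold cj
      rw [Subgroup.map_sup]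
      have h2 := R.conj_rp hk har
      have h3 := R.conj_rp hk har.neg
      unfold cj at h2 h3
      rw [h2, h3, map_neg]
    intro l hl
    rw [← h1]
    exact ⟨l, hl, rfl⟩
  have hgrp : ∀ l : Y, u * k * v * l * (u * k * v)⁻¹ = u * (k * (v * l * v⁻¹) * k⁻¹) * u⁻¹ := by
    intro l; group
  by_cases h1 : rep cs h w a = a ∨ rep cs h w a = -a
  · left
    intro l hl
    have h2 : X (rep cs h w a) ⊔ X (-rep cs h w a) = K := by
      rcases h1 with h1 | h1
      · rw [h1]
      · rw [h1, _root_.neg_neg, sup_comm]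
    rw [hgrp]
    refine (Subgroup.mem_normalizer_iff.1 hu' _).1 ?_
    rw [← h2]
    exact hkK _ ((Subgroup.mem_normalizer_iff.1 hv' l).1 hl)
  · right
    push Not at h1
    intro l hl m hm
    rw [hgrp]
    have h2 : u⁻¹ * m * u ∈ K := by
      have := (Subgroup.mem_normalizer_iff.1 (inv_mem hu') m).1 hm
      rwa [inv_inv] at this
    have h3 := hkK _ ((Subgroup.mem_normalizer_iff.1 hv' l).1 hl)
    generalize k * (v * l * v⁻¹) * k⁻¹ = y at h3
    have h4 : X (rep cs h w a) ⊔ X (-rep cs h w a) ≤ Subgroup.centralizer ({u⁻¹ * m * u} : Set Y) := by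
      refine sup_le ?_ ?_
      · intro y hy
        rw [Subgroup.mem_centralizer_iff]
        rintro _ rfl
        exact (hcomm _ hwa h1.1 h1.2 y hy _ h2).symm
      · intro y hy
        rw [Subgroup.mem_centralizer_iff]
        rintro _ rfl
        refine (hcomm _ (hE.neg _ hwa) ?_ ?_ y hy _ h2).symm
        · intro e; exact h1.2 (neg_eq_iff_eq_neg.1 e)
        · intro e; exact h1.1 (neg_injective e)
    have h5 := Subgroup.mem_centralizer_iff.1 (h4 h3) _ rfl
    calc u * y * u⁻¹ * m = u * (y * (u⁻¹ * m * u)) * u⁻¹ := by group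
      _ = u * ((u⁻¹ * m * u) * y) * u⁻¹ := by rw [h5]
      _ = m * (u * y * u⁻¹) := by group

end general

section chev

variable {D : ChevalleyDatum} {l : ℕ} {M : CoxeterMatrix (Fin l)} (hp : IsType D l M)

theorem range_phi (K : Type) [Field K] (i : Fin l) : (OddHalf.LongSL.Chev.phi hp K i).range =
    XX D l K (sr i) ⊔ XX D l K (-sr i) := by
  have h0 := RootVec.simple_lt hp.checked (lt_rank hp i)
  rw [← vec_simple hp i, ← vec_neg hp h0]
  have hup : ∀ t : K, OddHalf.LongSL.Chev.phi hp K i (SL2Hom.up t) ∈ XX D l K (vec D l (D.simple i)) := fun t =>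
    (mem_XX hp K h0).2 ⟨t, OddHalf.LongSL.Chev.phi_up hp K i t⟩
  have hlo : ∀ t : K, OddHalf.LongSL.Chev.phi hp K i (SL2Hom.lo t) ∈ XX D l K (vec D l (D.neg (D.simple i))) := fun t =>
    (mem_XX hp K (neg_lt hp.checked h0)).2 ⟨t, OddHalf.LongSL.Chev.phi_lo hp K i t⟩
  apply le_antisymm
  · rintro _ ⟨g, rfl⟩
    have h1 : g ∈ (XX D l K (vec D l (D.simple i)) ⊔ XX D l K (vec D l (D.neg (D.simple i)))).comap
        (OddHalf.LongSL.Chev.phi hp K i) := by
      refine (Subgroup.closure_le _).2 ?_ (SL2Hom.mem_closure_SL2 g)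
      rintro x (⟨t, rfl⟩ | ⟨t, rfl⟩)
      · exact (le_sup_left : XX D l K (vec D l (D.simple i)) ≤ _) (hup t)
      · exact (le_sup_right : XX D l K (vec D l (D.neg (D.simple i))) ≤ _) (hlo t)
    exact h1
  · refine sup_le ?_ ?_
    · intro u hu
      obtain ⟨t, ht⟩ := (mem_XX hp K h0).1 hu
      exact ⟨SL2Hom.up t, Subtype.ext ((OddHalf.LongSL.Chev.phi_up hp K i t).trans ht.symm)⟩
    · intro u hu
      obtain ⟨t, ht⟩ := (mem_XX hp K (neg_lt hp.checked h0)).1 hu
      exact ⟨SL2Hom.lo t, Subtype.ext ((OddHalf.LongSL.Chev.phi_lo hp K i t).trans ht.symm)⟩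

theorem ker_phi (K : Type) [Field K] (i : Fin l) : (OddHalf.LongSL.Chev.phi hp K i).ker ≤
    Subgroup.center (Matrix.SpecialLinearGroup (Fin 2) K) := by
  intro g hg
  have hg' : SL2Hom.phi (SL2All.good_of_mem D hp.inList (D.simple i) (simple_lt hp.inList (lt_rank hp i))) K g = 1 :=
    congrArg Subtype.val (MonoidHom.mem_ker.1 hg)
  rcases OddHalf.LongSL.Chev.phi_eq_one _ hg' with h | h
  · rw [h]; exact one_mem _
  · rw [h, Subgroup.mem_center_iff]
    intro x
    apply Subtype.ext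
    rw [Matrix.SpecialLinearGroup.coe_mul, Matrix.SpecialLinearGroup.coe_mul, Matrix.SpecialLinearGroup.coe_neg,
      Matrix.SpecialLinearGroup.coe_one, mul_neg, neg_mul, mul_one, one_mul]

include hp in
/-- **Subsystems of type `A_1`.** -/
theorem nb_of_a1 {K : Type} [Field K] [Fintype K] (hK : Odd (Fintype.card K)) {i : Fin l} {Ss : List (List (Fin l))}
    (hev : ∀ S ∈ Ss, evB D S (D.simple i) = true)
    (hc : ∀ r < D.nroots, (∀ S ∈ Ss, evB D S r = true) → r = D.simple i ∨ r = D.neg (D.simple i) ∨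
      ∀ s < D.nroots, (∃ k : Fin l, rt D s k ≠ rt D r k + rt D (D.simple i) k) ∧
        ∃ k : Fin l, rt D s k ≠ rt D r k + rt D (D.neg (D.simple i)) k)
    (h2 : NB (Matrix.ProjectiveSpecialLinearGroup (Fin 2) K)) : NB ↥(D.group K) := by
  classical
  obtain ⟨p, hpr, hcp⟩ : ∃ p : ℕ, p.Prime ∧ CharP K p := by
    obtain ⟨p, hcp⟩ := CharP.exists K
    exact ⟨p, CharP.char_is_prime K p, hcp⟩
  have : Fact p.Prime := ⟨hpr⟩
  let cs : CoxeterSystem M M.Group := M.toCoxeterSystem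
  have : Finite M.Group := finite_W hp cs
  have hfin : Finite ↥(D.group K) := inferInstance
  have h20 : (2 : K) ≠ 0 := H631.two_ne_zero_of_odd hK
  have R := Cfsg.Agent.Nodes.RGDChev.rgd hp (K := K) (cs := cs) p
  have h0 := RootVec.simple_lt hp.checked (lt_rank hp i)
  set S : Set ↥(D.group K) := {y | ∃ T ∈ Ss, y = zS hp K T} with hS
  have hE := evenSet hp (K := K) cs h20 Ss
  set Q := Subgroup.closure S with hQd
  have hSr : S = Set.range fun T : {T // T ∈ Ss} => zS hp K T.1 := by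
    ext y
    constructor
    · rintro ⟨T, hT, rfl⟩; exact ⟨⟨T, hT⟩, rfl⟩
    · rintro ⟨⟨T, hT⟩, rfl⟩; exact ⟨T, hT, rfl⟩
  have hQ : IsPGroup 2 Q := by
    rw [hQd, hSr]
    exact H631.isPGroup_closure _ (fun T => zS_sq hp K T.1) fun T T' =>
      diag_comm hp K _ (zS_mem_T hp K T.1) _ (zS_mem_T hp K T'.1)
  have hCQ : Subgroup.centralizer (Q : Set ↥(D.group K)) = Subgroup.centralizer S := Subgroup.centralizer_closure S
  have hEa : sr i ∈ Ev D l Ss := by
    rw [← vec_simple hp i, mem_Ev_vec hp h0]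
    intro T hT
    exact (evB_iff hp T h0).1 (hev T hT)
  have hiso : ∀ x ∈ Ev D l Ss, x ≠ sr i → x ≠ -sr i → ¬ IsRoot cs hp.isCartan (x + sr i) ∧
      ¬ IsRoot cs hp.isCartan (x + -sr i) := by
    rintro _ ⟨r, hr, rfl, hr'⟩ hx1 hx2
    rcases hc r hr (fun T hT => (evB_iff hp T hr).2 (hr' T hT)) with h3 | h3 | h3
    · exact absurd (by rw [h3, vec_simple hp i]) hx1
    · exact absurd (by rw [h3, vec_neg hp h0, vec_simple hp i]) hx2
    · constructor
      · intro h4
        obtain ⟨s, hs, h5⟩ := (isRoot_iff hp cs _).1 h4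
        obtain ⟨k, hk⟩ := (h3 s hs).1
        apply hk
        rw [← vec_simple hp i] at h5
        exact congrFun h5 k
      · intro h4
        obtain ⟨s, hs, h5⟩ := (isRoot_iff hp cs _).1 h4
        obtain ⟨k, hk⟩ := (h3 s hs).2
        apply hk
        rw [← vec_simple hp i, ← vec_neg hp h0] at h5
        exact congrFun h5 k
  have hrange := range_phi hp K i
  have hKC : (OddHalf.LongSL.Chev.phi hp K i).range ≤ Subgroup.centralizer (Q : Set ↥(D.group K)) := by
    rw [hCQ, hrange]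
    exact sup_le (hE.even _ hEa) (hE.even _ (hE.neg _ hEa))
  refine H526.OB.NB.of_component Q hQ (OddHalf.LongSL.Chev.phi hp K i).range hKC ?_
    (MonoidHom.id _) (fun x => ⟨x, rfl⟩) (by rw [MonoidHom.ker_id]; exact bot_le) (nb_range (ker_phi hp K i) h2)
  intro c hcc
  rw [hCQ] at hcc
  rw [hrange]
  exact cent_component R (S := S) (E := Ev D l Ss) (by rintro _ ⟨T, -, rfl⟩; exact zS_mem_T hp K T)
    (KFacts.RgdRigid.GG_eq_top (G1_eq_top hp cs)) (commOK hp (K := K) cs) hE hEa hiso hcc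

end chev

theorem iso_G2 : ∀ r < chevG2.nroots, (∀ S ∈ [[(0 : Fin 2)]], evB chevG2 S r = true) →
    r = chevG2.simple (0 : Fin 2) ∨ r = chevG2.neg (chevG2.simple (0 : Fin 2)) ∨
      ∀ s < chevG2.nroots, (∃ k : Fin 2, rt chevG2 s k ≠ rt chevG2 r k + rt chevG2 (chevG2.simple (0 : Fin 2)) k) ∧
        ∃ k : Fin 2, rt chevG2 s k ≠ rt chevG2 r k + rt chevG2 (chevG2.neg (chevG2.simple (0 : Fin 2))) k := by
  decide +kernel

theorem nb_g2 {F : Type} [Field F] [Fintype F] (hF : Odd (Fintype.card F))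
    (h2 : NB (Matrix.ProjectiveSpecialLinearGroup (Fin 2) F)) : NB ↥(chevG2.group F) :=
  nb_of_a1 H631.ExcChev.isType_G2 hF (i := 0) (Ss := [[0]]) (by decide +kernel) iso_G2 h2

end Cfsg.Agent.H622.OB
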